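import Mathlib
import Cfsg.Agent.Lib.Helper33.SylIn
import Cfsg.Agent.Lib.Helper33.Local

/-!
# Quadratic offenders in minimal configurations (towards Thompson factorization, `p = 2`)

A finite group `H` acts on an abelian group `V` of exponent two.  For a subgroup `L` generated by
two conjugates of an elementary abelian `2`-subgroup `A` acting quadratically, with "Baer–Suzuki"
generation (`Setup.hBS`) and without elements of order three in products of two conjugate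
involutions, we bound the fixed points of `A` on an `L`-invariant subgroup `U`.
-/

set_option autoImplicit false

namespace Cfsg.Agent.Lib.Helper33.Ff

open Pointwise

/-- Counting with bounded fibers. -/
theorem card_le_mul_of_fibers {α β : Type*} [Finite α] [Finite β] (f : α → β) (n : ℕ)
    (h : ∀ a : α, Nat.card {a' : α // f a' = f a} ≤ n) : Nat.card α ≤ n * Nat.card β := by
  classical
  have := Fintype.ofFinite β
  rw [← Nat.card_congr (Equiv.sigmaFiberEquiv f), Nat.card_sigma]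
  calc ∑ b : β, Nat.card {x // f x = b} ≤ ∑ _b : β, n := by
        apply Finset.sum_le_sum
        intro b _
        by_cases hb : ∃ a, f a = b
        · obtain ⟨a, rfl⟩ := hb
          exact h a
        · have : IsEmpty {x // f x = b} := ⟨fun x => hb ⟨x.1, x.2⟩⟩
          simp
    _ = n * Nat.card β := by
        rw [Finset.sum_const, Finset.card_univ, smul_eq_mul, Nat.card_eq_fintype_card, mul_comm]

section act

variable {H : Type*} [Group H] {V : Type*} [AddCommGroup V] [DistribMulAction H V]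

theorem neg_eq_of_two (h2 : ∀ v : V, v + v = 0) (v : V) : -v = v :=
  neg_eq_of_add_eq_zero_right (h2 v)

theorem sub_eq_add_of_two (h2 : ∀ v : V, v + v = 0) (v w : V) : v - w = v + w := by
  rw [sub_eq_add_neg, neg_eq_of_two h2]

/-- The fixed points of the subgroup `A`. -/
def fixV (A : Subgroup H) : AddSubgroup V where
  carrier := {v | ∀ a ∈ A, a • v = v}
  zero_mem' := fun a _ => smul_zero a
  add_mem' := fun {v w} hv hw a ha => by rw [smul_add, hv a ha, hw a ha]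
  neg_mem' := fun {v} hv a ha => by rw [smul_neg, hv a ha]

theorem mem_fixV {A : Subgroup H} {v : V} : v ∈ fixV A ↔ ∀ a ∈ A, a • v = v := Iff.rfl

theorem fixV_anti {A B : Subgroup H} (h : A ≤ B) : fixV (V := V) B ≤ fixV A :=
  fun _ hv a ha => hv a (h ha)

/-- The elements of `L` acting trivially on `U` modulo `D`. -/
def trivOn (L : Subgroup H) (U D : AddSubgroup V) (hU : ∀ g ∈ L, ∀ u ∈ U, g • u ∈ U) :
    Subgroup H where
  carrier := {g | g ∈ L ∧ ∀ u ∈ U, g • u - u ∈ D}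
  one_mem' := ⟨L.one_mem, fun u _ => by rw [one_smul, sub_self]; exact D.zero_mem⟩
  mul_mem' := by
    rintro g h ⟨hg, hg'⟩ ⟨hh, hh'⟩
    refine ⟨L.mul_mem hg hh, fun u hu => ?_⟩
    have e : (g * h) • u - u = (g • (h • u) - h • u) + (h • u - u) := by rw [mul_smul]; abel
    rw [e]
    exact D.add_mem (hg' _ (hU h hh u hu)) (hh' u hu)
  inv_mem' := by
    rintro g ⟨hg, hg'⟩
    refine ⟨L.inv_mem hg, fun u hu => ?_⟩
    have e : g⁻¹ • u - u = -(g • (g⁻¹ • u) - g⁻¹ • u) := by rw [smul_inv_smul]; abel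
    rw [e]
    exact D.neg_mem (hg' _ (hU _ (L.inv_mem hg) u hu))

theorem sub_mem_of_gens {L A B : Subgroup H} {U D : AddSubgroup V}
    (hU : ∀ g ∈ L, ∀ u ∈ U, g • u ∈ U) (hAB : A ⊔ B = L)
    (hA : ∀ a ∈ A, ∀ u ∈ U, a • u - u ∈ D) (hB : ∀ b ∈ B, ∀ u ∈ U, b • u - u ∈ D) :
    ∀ g ∈ L, ∀ u ∈ U, g • u - u ∈ D := by
  have hAL : A ≤ L := by rw [← hAB]; exact le_sup_left
  have hBL : B ≤ L := by rw [← hAB]; exact le_sup_right
  have h1 : A ⊔ B ≤ trivOn L U D hU :=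
    sup_le (fun a ha => ⟨hAL ha, hA a ha⟩) (fun b hb => ⟨hBL hb, hB b hb⟩)
  intro g hg
  rw [← hAB] at hg
  exact (h1 hg).2

theorem fixed_of_gens {L A B : Subgroup H} (hAB : A ⊔ B = L) {v : V}
    (hA : ∀ a ∈ A, a • v = v) (hB : ∀ b ∈ B, b • v = v) : v ∈ fixV L := by
  have h1 : A ⊔ B ≤ MulAction.stabilizer H v :=
    sup_le (fun a ha => MulAction.mem_stabilizer_iff.2 (hA a ha))
      (fun b hb => MulAction.mem_stabilizer_iff.2 (hB b hb))
  intro g hg
  rw [← hAB] at hg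
  exact MulAction.mem_stabilizer_iff.1 (h1 hg)

theorem cj_smul_fixed {A : Subgroup H} {x : H} {v : V} (h : x⁻¹ • v ∈ fixV A) :
    ∀ b ∈ cj x A, b • v = v := by
  intro b hb
  have h1 := h _ (mem_cj.1 hb)
  rw [mul_smul, mul_smul, smul_inv_smul] at h1
  exact smul_left_cancel _ h1

theorem conj_smul_sub (x a : H) (u : V) :
    (x * a * x⁻¹) • u - u = x • (a • (x⁻¹ • u) - x⁻¹ • u) := by
  rw [smul_sub, smul_inv_smul, mul_smul, mul_smul]

/-- The commutator `[U, A]`. -/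
def comm (A : Subgroup H) (U : AddSubgroup V) : AddSubgroup V :=
  AddSubgroup.closure {w | ∃ a ∈ A, ∃ u ∈ U, w = a • u - u}

theorem sub_mem_comm {A : Subgroup H} {U : AddSubgroup V} {a : H} {u : V} (ha : a ∈ A)
    (hu : u ∈ U) : a • u - u ∈ comm A U :=
  AddSubgroup.subset_closure ⟨a, ha, u, hu, rfl⟩

/-- An element of `H` whose cube fixes a point it moves has order divisible by three. -/
theorem three_dvd_orderOf (h2 : ∀ v : V, v + v = 0) {a b : H} {u w c : V} (hau : a • u = u)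
    (haw : a • w = u + w + c) (hbu : b • u = w) (hbw : b • w = u) (hac : a • c = c)
    (hbc : b • c = c) (hwc : w ≠ c) : 3 ∣ orderOf (a * b) := by
  have e1 : (a * b) • u = u + w + c := by rw [mul_smul, hbu, haw]
  have e2 : (a * b) • (u + w + c) = w := by
    have hb : b • (u + w + c) = w + u + c := by rw [smul_add, smul_add, hbu, hbw, hbc]
    rw [mul_smul, hb, smul_add, smul_add, haw, hau, hac]
    have : u + w + c + u + c = w + (u + u) + (c + c) := by abel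
    rw [this, h2, h2, add_zero, add_zero]
  have e3 : (a * b) • w = u := by rw [mul_smul, hbw, hau]
  have h3 : (a * b) ^ 3 • u = u := by
    rw [pow_succ, pow_two, mul_smul, mul_smul, e1, e2, e3]
  have hp : MulAction.period (a * b) u ∣ 3 := MulAction.pow_smul_eq_iff_period_dvd.1 h3
  have hp1 : MulAction.period (a * b) u ≠ 1 := by
    intro h
    have h4 := MulAction.period_eq_one_iff.1 h
    rw [e1] at h4
    have h5 : w + c = 0 := by
      have : u + w + c = u + (w + c) := by abel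
      rw [this] at h4
      exact add_eq_left.1 h4
    apply hwc
    have h6 := eq_neg_of_add_eq_zero_left h5
    rw [neg_eq_of_two h2] at h6
    exact h6
  have hp3 : MulAction.period (a * b) u = 3 := by
    rcases (Nat.dvd_prime Nat.prime_three).1 hp with h | h
    · exact absurd h hp1
    · exact h
  rw [← hp3]
  exact MulAction.period_dvd_orderOf _ _

theorem sub_mem_comm_sup {L A : Subgroup H} {U : AddSubgroup V}
    (hU : ∀ g ∈ L, ∀ u ∈ U, g • u ∈ U) {y : H} (hy : y ∈ L) (hgen : A ⊔ cj y A = L) :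
    ∀ g ∈ L, ∀ u ∈ U, g • u - u ∈ comm A U ⊔ y • comm A U := by
  refine sub_mem_of_gens hU hgen (fun a ha u hu => ?_) (fun b hb u hu => ?_)
  · exact (le_sup_left : comm A U ≤ _) (sub_mem_comm ha hu)
  · have hb' := mem_cj.1 hb
    have e : b = y * (y⁻¹ * b * y) * y⁻¹ := by group
    rw [e, conj_smul_sub]
    apply (le_sup_right : y • comm A U ≤ _)
    apply AddSubgroup.smul_mem_pointwise_smul
    exact sub_mem_comm hb' (hU _ (L.inv_mem hy) u hu)

theorem sq_smul_of_quad (h2 : ∀ v : V, v + v = 0) {s : H} {v : V}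
    (h : s • (s • v - v) = s • v - v) : (s * s) • v = v := by
  rw [smul_sub] at h
  have e : s • s • v = (s • s • v - s • v) + s • v := by abel
  rw [mul_smul, e, h]
  have e2 : s • v - v + s • v = (s • v + s • v) - v := by abel
  rw [e2, h2, zero_sub, neg_eq_of_two h2]

/-- The hypotheses of the minimal configuration. -/
structure Setup (L A R : Subgroup H) (U : AddSubgroup V) : Prop where
  h2 : ∀ v : V, v + v = 0
  hAL : A ≤ L
  hA2 : ∀ a ∈ A, a * a = 1
  hU : ∀ g ∈ L, ∀ u ∈ U, g • u ∈ U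
  h1 : ∀ r ∈ R, ∀ u ∈ U, r • u = u
  h6 : ∀ g ∈ L, (∀ u ∈ U, g • u = u) → g ∈ R
  hR2 : IsPGroup 2 R
  hBS : ∀ a ∈ A, a ∉ R → ∃ y ∈ L, A ⊔ cj y A = L ∧ cj y A ⊔ cj (a * y) A = L
  hquad : ∀ a ∈ A, ∀ a' ∈ A, ∀ u ∈ U, a • (a' • u - u) = a' • u - u
  hL2 : ¬ IsPGroup 2 L
  hnot : ¬ A ≤ R
  hS3 : ∀ a ∈ A, ∀ x ∈ L, ∀ a' ∈ A, ¬ 3 ∣ orderOf (a * (x * a' * x⁻¹))

namespace Setup

variable {L A R : Subgroup H} {U : AddSubgroup V}

theorem comm_le_U (hs : Setup L A R U) : comm A U ≤ U := by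
  rw [comm, AddSubgroup.closure_le]
  rintro w ⟨a, ha, u, hu, rfl⟩
  exact U.sub_mem (hs.hU a (hs.hAL ha) u hu) hu

theorem comm_le_fix (hs : Setup L A R U) : comm A U ≤ fixV A := by
  rw [comm, AddSubgroup.closure_le]
  rintro w ⟨a, ha, u, hu, rfl⟩
  intro a' ha'
  exact hs.hquad a' ha' a ha u hu

theorem sub_mem_sup (hs : Setup L A R U) {y : H} (hy : y ∈ L) (hgen : A ⊔ cj y A = L) :
    ∀ g ∈ L, ∀ u ∈ U, g • u - u ∈ comm A U ⊔ y • comm A U :=
  sub_mem_comm_sup hs.hU hy hgen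

theorem gen_inv {x : H} (hx : x ∈ L) (hgen : A ⊔ cj x A = L) :
    A ⊔ cj x⁻¹ A = L := by
  have h1 : cj x⁻¹ (A ⊔ cj x A) = cj x⁻¹ A ⊔ A := by
    show (A ⊔ cj x A).map _ = _
    rw [Subgroup.map_sup]
    show cj x⁻¹ A ⊔ cj x⁻¹ (cj x A) = _
    rw [cj_inv_cj]
  rw [hgen, cj_eq_self_of_mem (L.inv_mem hx)] at h1
  rw [sup_comm, ← h1]

theorem F6 (hs : Setup L A R U) {a : H} (ha : a ∈ A) (haR : a ∉ R) {x : H} (hx : x ∈ L)
    (hgen : A ⊔ cj x A = L) {i : V} (hi : i ∈ comm A U)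
    (h : a • (x • i) - x • i ∈ fixV L ⊓ U) : x • i ∈ fixV L ⊓ U := by
  obtain ⟨y, hy, hgen1, hgen2⟩ := hs.hBS a ha haR
  have hiU : i ∈ U := hs.comm_le_U hi
  have hxiU : x • i ∈ U := hs.hU x hx i hiU
  have hxiD : x • i ∈ comm A U ⊔ y • comm A U := by
    have e : x • i = i + (x • i - i) := by abel
    rw [e]
    exact add_mem ((le_sup_left : comm A U ≤ _) hi) (hs.sub_mem_sup hy hgen1 x hx i hiU)
  obtain ⟨i', hi', z, hz, hsum⟩ := AddSubgroup.mem_sup.1 hxiD
  obtain ⟨j, hj, rfl⟩ := (AddSubgroup.mem_smul_pointwise_iff_exists _ _ _).1 hz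
  have hai' : a • i' = i' := hs.comm_le_fix hi' a ha
  have hc : a • (y • j) - y • j ∈ fixV L ⊓ U := by
    have e : a • (x • i) - x • i = a • (y • j) - y • j := by
      rw [← hsum, smul_add, hai']; abel
    rw [e] at h
    exact h
  have hcyA : cj y A ≤ L := by rw [← hgen1]; exact le_sup_right
  have hfix1 : ∀ b ∈ cj y A, b • (a • (y • j)) = a • (y • j) := by
    intro b hb
    have hbz : b • (y • j) = y • j := by
      apply cj_smul_fixed _ b hb
      rw [inv_smul_smul]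
      exact hs.comm_le_fix hj
    have hbc := hc.1 b (hcyA hb)
    have e : a • (y • j) = y • j + (a • (y • j) - y • j) := by abel
    rw [e, smul_add, hbz, hbc]
  have hfix2 : ∀ b ∈ cj (a * y) A, b • (a • (y • j)) = a • (y • j) := by
    apply cj_smul_fixed
    rw [mul_inv_rev, mul_smul, inv_smul_smul, inv_smul_smul]
    exact hs.comm_le_fix hj
  have hazL : a • (y • j) ∈ fixV L := fixed_of_gens hgen2 hfix1 hfix2
  have hzL : y • j ∈ fixV L := by
    have h3 := hazL a⁻¹ (L.inv_mem (hs.hAL ha))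
    rw [inv_smul_smul] at h3
    rw [h3]
    exact hazL
  have hxiA : x • i ∈ fixV A := by
    rw [← hsum]
    exact add_mem (hs.comm_le_fix hi') (fixV_anti hs.hAL hzL)
  refine ⟨fixed_of_gens hgen hxiA ?_, hxiU⟩
  apply cj_smul_fixed
  rw [inv_smul_smul]
  exact hs.comm_le_fix hi

theorem F7 (hs : Setup L A R U) {a' : H} (ha' : a' ∈ A) (haR : a' ∉ R) {x : H} (hx : x ∈ L)
    (hgen : A ⊔ cj x A = L) {i : V} (hi : i ∈ comm A U)
    (h : (x * a' * x⁻¹) • i - i ∈ fixV L ⊓ U) : i ∈ fixV L ⊓ U := by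
  have hx' : x⁻¹ ∈ L := L.inv_mem hx
  have e : a' • (x⁻¹ • i) - x⁻¹ • i = (x * a' * x⁻¹) • i - i := by
    have h3 := h.1 x⁻¹ hx'
    rw [conj_smul_sub, inv_smul_smul] at h3
    rw [conj_smul_sub]
    exact h3
  have h4 := hs.F6 ha' haR hx' (gen_inv hx hgen) hi (by rw [e]; exact h)
  have h5 := h4.1 x hx
  rw [smul_inv_smul] at h5
  rw [h5]
  exact h4

theorem F9 (hs : Setup L A R U) : ∃ i ∈ comm A U, i ∉ fixV L ⊓ U := by
  by_contra hcon0
  have hcon : ∀ i ∈ comm A U, i ∈ fixV L ⊓ U := fun i hi => by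
    by_contra h
    exact hcon0 ⟨i, hi, h⟩
  obtain ⟨a₀, ha₀, ha₀R⟩ := SetLike.not_le_iff_exists.1 hs.hnot
  obtain ⟨y, hy, hgen, -⟩ := hs.hBS a₀ ha₀ ha₀R
  have hall : ∀ g ∈ L, ∀ u ∈ U, g • u - u ∈ fixV L ⊓ U := by
    refine sub_mem_of_gens hs.hU hgen (fun a ha u hu => hcon _ (sub_mem_comm ha hu))
      (fun b hb u hu => ?_)
    have hb' := mem_cj.1 hb
    have e : b = y * (y⁻¹ * b * y) * y⁻¹ := by group
    have h3 := hcon _ (sub_mem_comm hb' (hs.hU _ (L.inv_mem hy) u hu))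
    rw [e, conj_smul_sub, h3.1 y hy]
    exact h3
  apply hs.hL2
  rintro ⟨g, hg⟩
  have hgg : g * g ∈ R := by
    apply hs.h6 _ (L.mul_mem hg hg)
    intro u hu
    obtain ⟨c, hcdef⟩ : ∃ c, c = g • u - u := ⟨_, rfl⟩
    have hc := hall g hg u hu
    rw [← hcdef] at hc
    have hgc := hc.1 g hg
    have e : g • u = u + c := by rw [hcdef]; abel
    rw [mul_smul, e, smul_add, hgc, e, add_assoc, hs.h2, add_zero]
  obtain ⟨k, hk⟩ := hs.hR2 ⟨g * g, hgg⟩
  refine ⟨k + 1, Subtype.ext ?_⟩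
  have hk' : (g * g) ^ 2 ^ k = 1 := by
    have := congrArg Subtype.val hk
    simpa using this
  show g ^ 2 ^ (k + 1) = 1
  rw [pow_succ, mul_comm, pow_mul, pow_two, hk']

/-- **The minimal configuration.** -/
theorem caseI [Finite H] [Finite V] (hs : Setup L A R U) :
    2 * Nat.card A * Nat.card ↥(fixV A ⊓ U) ≤ Nat.card ↥(A ⊓ R) * Nat.card U := by
  classical
  obtain ⟨a₀, ha₀, ha₀R⟩ := SetLike.not_le_iff_exists.1 hs.hnot
  obtain ⟨x, hx, hgen, -⟩ := hs.hBS a₀ ha₀ ha₀R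
  obtain ⟨i₀, hi₀, hi₀C⟩ := hs.F9
  have hi₀U : i₀ ∈ U := hs.comm_le_U hi₀
  have hx' : x⁻¹ ∈ L := L.inv_mem hx
  have hbL : x * a₀ * x⁻¹ ∈ L := L.mul_mem (L.mul_mem hx (hs.hAL ha₀)) hx'
  obtain ⟨ξ, hξdef⟩ : ∃ ξ, ξ = (x * a₀ * x⁻¹) • i₀ - i₀ := ⟨_, rfl⟩
  have hξU : ξ ∈ U := by rw [hξdef]; exact U.sub_mem (hs.hU _ hbL _ hi₀U) hi₀U
  have hξC : ξ ∉ fixV L ⊓ U := fun h => hi₀C (hs.F7 ha₀ ha₀R hx hgen hi₀ (hξdef ▸ h))
  have hξI : x⁻¹ • ξ ∈ comm A U := by
    rw [hξdef, conj_smul_sub, inv_smul_smul]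
    exact sub_mem_comm ha₀ (hs.hU _ hx' _ hi₀U)
  have hψmul : ∀ a ∈ A, ∀ a' ∈ A, (a * a') • ξ - ξ = (a • ξ - ξ) + (a' • ξ - ξ) := by
    intro a ha a' ha'
    have h3 := hs.hquad a ha a' ha' ξ hξU
    have e : (a * a') • ξ - ξ = a • (a' • ξ - ξ) + (a • ξ - ξ) := by
      rw [mul_smul, smul_sub]; abel
    rw [e, h3]; abel
  have hψR : ∀ a ∈ A, a • ξ - ξ ∈ fixV L ⊓ U → a ∈ R := by
    intro a ha h
    by_contra haR
    have h4 := hs.F6 ha haR hx hgen hξI (by rw [smul_inv_smul]; exact h)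
    rw [smul_inv_smul] at h4
    exact hξC h4
  have hψ0 : ∀ a ∈ R, a • ξ - ξ = 0 := fun a ha => by rw [hs.h1 a ha ξ hξU, sub_self]
  have hS3c : ∀ a ∈ A, ∀ c ∈ fixV L ⊓ U, i₀ ≠ (a • ξ - ξ) + c := by
    intro a ha c hc heq
    obtain ⟨w, hwdef⟩ : ∃ w, w = (x * a₀ * x⁻¹) • i₀ := ⟨_, rfl⟩
    have hξw : ξ = w + i₀ := by rw [hξdef, ← hwdef, sub_eq_add_of_two hs.h2]
    have hau : a • i₀ = i₀ := hs.comm_le_fix hi₀ a ha
    have haw : a • w = i₀ + w + c := by
      rw [hξw, smul_add, hau, sub_eq_add_of_two hs.h2] at heq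
      have e1 : a • w + i₀ + (w + i₀) + c = a • w + w + c + (i₀ + i₀) := by abel
      rw [e1, hs.h2, add_zero] at heq
      have e2 : a • w = (a • w + w + c) + w + c - ((w + w) + (c + c)) := by abel
      rw [e2, ← heq, hs.h2, hs.h2, add_zero, sub_zero]
    have hbu : (x * a₀ * x⁻¹) • i₀ = w := hwdef.symm
    have hbb : (x * a₀ * x⁻¹) * (x * a₀ * x⁻¹) = 1 := by
      have : (x * a₀ * x⁻¹) * (x * a₀ * x⁻¹) = x * (a₀ * a₀) * x⁻¹ := by group
      rw [this, hs.hA2 a₀ ha₀]; group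
    have hbw : (x * a₀ * x⁻¹) • w = i₀ := by
      rw [hwdef, ← mul_smul, hbb, one_smul]
    have hac : a • c = c := hc.1 a (hs.hAL ha)
    have hbc : (x * a₀ * x⁻¹) • c = c := hc.1 _ hbL
    have hwc : w ≠ c := by
      intro h
      have h5 : (x * a₀ * x⁻¹) • w = w := by rw [h]; exact hbc
      rw [hbw] at h5
      apply hi₀C
      rw [h5, h]
      exact hc
    exact hs.hS3 a ha x hx a₀ ha₀ (three_dvd_orderOf hs.h2 hau haw hbu hbw hac hbc hwc)
  let e : Bool → V := fun ε => if ε then i₀ else 0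
  have heI : ∀ ε, e ε ∈ comm A U := by
    intro ε; cases ε
    · exact (comm A U).zero_mem
    · exact hi₀
  have hmemU : ∀ t : ↥A × Bool × ↥(fixV A ⊓ U),
      x • (((t.1 : H) • ξ - ξ) + e t.2.1) + (t.2.2 : V) ∈ U := by
    intro t
    refine U.add_mem (hs.hU x hx _ (U.add_mem ?_ (hs.comm_le_U (heI _)))) t.2.2.2.2
    exact U.sub_mem (hs.hU _ (hs.hAL t.1.2) _ hξU) hξU
  let Ψ : ↥A × Bool × ↥(fixV A ⊓ U) → ↥U := fun t => ⟨_, hmemU t⟩
  have key : ∀ t t', Ψ t = Ψ t' →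
      t.2.1 = t'.2.1 ∧ t.2.2 = t'.2.2 ∧ (t.1 : H) * (t'.1 : H) ∈ R := by
    rintro ⟨⟨a, ha⟩, ε, ⟨w, hw⟩⟩ ⟨⟨a', ha'⟩, ε', ⟨w', hw'⟩⟩ h
    have h' : x • ((a • ξ - ξ) + e ε) + w = x • ((a' • ξ - ξ) + e ε') + w' :=
      congrArg Subtype.val h
    obtain ⟨m, hmdef⟩ : ∃ m, m = ((a * a') • ξ - ξ) + (e ε + e ε') := ⟨_, rfl⟩
    have hxm : x • m = w + w' := by
      rw [hmdef, hψmul a ha a' ha']
      have e1 : (a • ξ - ξ) + (a' • ξ - ξ) + (e ε + e ε') =
          ((a • ξ - ξ) + e ε) + ((a' • ξ - ξ) + e ε') := by abel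
      rw [e1, smul_add]
      have e2 : x • ((a • ξ - ξ) + e ε) = x • ((a' • ξ - ξ) + e ε') + w' + w := by
        have : x • ((a • ξ - ξ) + e ε) = (x • ((a • ξ - ξ) + e ε) + w) - w := by abel
        rw [this, h', sub_eq_add_of_two hs.h2]
      rw [e2]
      have e3 : x • ((a' • ξ - ξ) + e ε') + w' + w + x • ((a' • ξ - ξ) + e ε') =
          w + w' + (x • ((a' • ξ - ξ) + e ε') + x • ((a' • ξ - ξ) + e ε')) := by abel
      rw [e3, hs.h2, add_zero]
    have hmI : m ∈ comm A U := by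
      rw [hmdef]
      exact add_mem (sub_mem_comm (A.mul_mem ha ha') hξU) (add_mem (heI _) (heI _))
    have hxmA : x • m ∈ fixV A := by rw [hxm]; exact add_mem hw.1 hw'.1
    have hxmL : x • m ∈ fixV L := by
      refine fixed_of_gens hgen hxmA ?_
      apply cj_smul_fixed
      rw [inv_smul_smul]
      exact hs.comm_le_fix hmI
    have hmC : m ∈ fixV L ⊓ U := by
      have h3 := hxmL x⁻¹ hx'
      rw [inv_smul_smul] at h3
      rw [h3]
      exact ⟨hxmL, hs.hU x hx m (hs.comm_le_U hmI)⟩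
    have hεε : ε = ε' := by
      by_contra hne
      have hee : e ε + e ε' = i₀ := by
        cases ε <;> cases ε' <;> simp [e] at hne ⊢
      apply hS3c (a * a') (A.mul_mem ha ha') m hmC
      rw [hmdef, hee]
      have e4 : (a * a') • ξ - ξ + ((a * a') • ξ - ξ + i₀) =
          i₀ + (((a * a') • ξ - ξ) + ((a * a') • ξ - ξ)) := by abel
      rw [e4, hs.h2, add_zero]
    subst hεε
    have hm' : m = (a * a') • ξ - ξ := by rw [hmdef, hs.h2, add_zero]
    have hR : a * a' ∈ R := hψR _ (A.mul_mem ha ha') (hm' ▸ hmC)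
    refine ⟨rfl, ?_, hR⟩
    have hm0 : m = 0 := by rw [hm', hψ0 _ hR]
    rw [hm0, smul_zero] at hxm
    apply Subtype.ext
    show w = w'
    have h7 := eq_neg_of_add_eq_zero_left hxm.symm
    rw [neg_eq_of_two hs.h2] at h7
    exact h7
  have hfib : ∀ t, Nat.card {t' // Ψ t' = Ψ t} ≤ Nat.card ↥(A ⊓ R) := by
    intro t
    let φ : {t' // Ψ t' = Ψ t} → ↥(A ⊓ R) := fun t' =>
      ⟨(t.1 : H) * (t'.1.1 : H), A.mul_mem t.1.2 t'.1.1.2, (key t t'.1 t'.2.symm).2.2⟩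
    apply Nat.card_le_card_of_injective φ
    intro t' t'' h
    have h1 : (t.1 : H) * (t'.1.1 : H) = (t.1 : H) * (t''.1.1 : H) :=
      congrArg Subtype.val h
    have h2 := mul_left_cancel h1
    have k1 := key t t'.1 t'.2.symm
    have k2 := key t t''.1 t''.2.symm
    apply Subtype.ext
    apply Prod.ext
    · exact Subtype.ext h2
    · apply Prod.ext
      · exact k1.1.symm.trans k2.1
      · exact k1.2.1.symm.trans k2.2.1
  have hcount := card_le_mul_of_fibers Ψ _ hfib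
  rw [Nat.card_prod, Nat.card_prod, Nat.card_eq_fintype_card (α := Bool),
    Fintype.card_bool] at hcount
  calc 2 * Nat.card A * Nat.card ↥(fixV A ⊓ U)
      = Nat.card A * (2 * Nat.card ↥(fixV A ⊓ U)) := by ring
    _ ≤ _ := hcount

end Setup

end act

end Cfsg.Agent.Lib.Helper33.Ff
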