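import Mathlib
import Cfsg.Agent.Lib.Helper33.Ff1
import Cfsg.Agent.Lib.Helper33.Sect2
import Cfsg.Agent.Lib.Helper64.BaerSuzuki

/-!
# No offenders for quadratically acting Sylow `2`-subgroups

A finite group `H` with `O_2(H) = 1` acts faithfully on an abelian group `V` of exponent two, a
Sylow `2`-subgroup acts quadratically, and no product of two conjugate involutions of the
`2`-subgroup `A ≠ 1` has order divisible by three.  Then `2 |A| |C_V(A)| ≤ |V|`.
-/

set_option autoImplicit false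

namespace Cfsg.Agent.Lib.Helper33.Ff

open Pointwise Cfsg

section O2

variable {H : Type*} [Group H]

/-- The largest normal `2`-subgroup of `L`, as a subgroup of the ambient group. -/
def O2 (L : Subgroup H) : Subgroup H := (pCore 2 ↥L).map L.subtype

theorem O2_le (L : Subgroup H) : O2 L ≤ L := by
  rintro _ ⟨x, -, rfl⟩
  exact x.2

theorem O2_isPGroup (L : Subgroup H) : IsPGroup 2 (O2 L) :=
  have : Fact (Nat.Prime 2) := ⟨Nat.prime_two⟩
  (pCore_isPGroup 2 ↥L).map _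

theorem O2_conj_mem {L : Subgroup H} {g x : H} (hg : g ∈ L) (hx : x ∈ O2 L) :
    g * x * g⁻¹ ∈ O2 L := by
  obtain ⟨y, hy, rfl⟩ := hx
  exact ⟨⟨g, hg⟩ * y * ⟨g, hg⟩⁻¹, (pCore_normal 2 ↥L).conj_mem y hy _, rfl⟩

theorem le_O2 {L N : Subgroup H} (hNL : N ≤ L) (hN : IsPGroup 2 N)
    (hnorm : ∀ g ∈ L, ∀ x ∈ N, g * x * g⁻¹ ∈ N) : N ≤ O2 L := by
  intro x hx
  have h1 : (N.subgroupOf L).Normal := ⟨fun n hn g => hnorm g.1 g.2 n.1 hn⟩
  have h2 : IsPGroup 2 (N.subgroupOf L) := hN.comap_of_injective L.subtype L.subtype_injective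
  exact ⟨⟨x, hNL hx⟩, le_pCore h1 h2 (Subgroup.mem_subgroupOf.2 hx), rfl⟩

theorem le_normalizer_O2 (L : Subgroup H) : L ≤ Subgroup.normalizer (O2 L : Set H) := by
  intro g hg
  rw [Subgroup.mem_normalizer_iff]
  intro h
  constructor
  · exact fun hh => O2_conj_mem hg hh
  · intro hh
    have h3 := O2_conj_mem (L.inv_mem hg) hh
    have e : g⁻¹ * (g * h * g⁻¹) * g⁻¹⁻¹ = h := by group
    rw [e] at h3
    exact h3

theorem cj_O2_le (g : H) (M : Subgroup H) : cj g (O2 M) ≤ O2 (cj g M) := by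
  apply le_O2 (cj_mono (O2_le M)) (isPGroup_cj (O2_isPGroup M))
  intro k hk x hx
  rw [mem_cj] at hk hx ⊢
  have h3 := O2_conj_mem hk hx
  have e : g⁻¹ * (k * x * k⁻¹) * g = (g⁻¹ * k * g) * (g⁻¹ * x * g) * (g⁻¹ * k * g)⁻¹ := by group
  rw [e]
  exact h3

theorem O2_cj (g : H) (M : Subgroup H) : O2 (cj g M) = cj g (O2 M) := by
  apply le_antisymm _ (cj_O2_le g M)
  have h := cj_O2_le g⁻¹ (cj g M)
  rw [cj_inv_cj] at h
  have h3 := cj_le_iff.1 h
  rwa [inv_inv] at h3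

theorem exists_min_card {α : Type*} (P : α → Prop) (f : α → ℕ) (h : ∃ a, P a) :
    ∃ a, P a ∧ ∀ b, P b → f a ≤ f b := by
  classical
  have h' : ∃ n, ∃ a, P a ∧ f a = n := by
    obtain ⟨a, ha⟩ := h
    exact ⟨_, a, ha, rfl⟩
  obtain ⟨a, ha, hfa⟩ := Nat.find_spec h'
  refine ⟨a, ha, fun b hb => ?_⟩
  rw [hfa]
  exact Nat.find_min' h' ⟨b, hb, rfl⟩

/-- Baer–Suzuki generation in a minimal configuration. -/
theorem exists_gen [Finite H] {L A : Subgroup H} (hAL : A ≤ L) (hA2 : ∀ a ∈ A, a * a = 1)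
    (hmin : ∀ M : Subgroup H, M ≤ L → M ≠ L → A ≤ M → A ≤ O2 M)
    {a : H} (ha : a ∈ A) (haR : a ∉ O2 L) :
    ∃ y ∈ L, A ⊔ cj y A = L ∧ cj y A ⊔ cj (a * y) A = L := by
  by_contra hcon
  have hminc : ∀ M : Subgroup H, M ≤ L → M ≠ L → ∀ y ∈ L, cj y A ≤ M → cj y A ≤ O2 M := by
    intro M hML hne y hy hyM
    have h1 : A ≤ cj y⁻¹ M := cj_le_iff.1 hyM
    have h2 : cj y⁻¹ M ≤ L := by
      have := cj_mono (g := y⁻¹) hML
      rwa [cj_eq_self_of_mem (L.inv_mem hy)] at this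
    have h3 : cj y⁻¹ M ≠ L := by
      intro h
      apply hne
      have := congrArg (cj y) h
      rwa [cj_cj_inv, cj_eq_self_of_mem hy] at this
    have h4 := hmin _ h2 h3 h1
    rw [O2_cj] at h4
    exact cj_le_iff.2 h4
  have h2grp : ∀ M : Subgroup H, M ≤ O2 M → IsPGroup 2 M := fun M h => (O2_isPGroup M).to_le h
  have hP : ∀ y ∈ L, ∃ P : Subgroup H, IsPGroup 2 P ∧ a ∈ P ∧ y * a * y⁻¹ ∈ P := by
    intro y hy
    have hyA : cj y A ≤ L := by
      have := cj_mono (g := y) hAL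
      rwa [cj_eq_self_of_mem hy] at this
    by_cases h1 : A ⊔ cj y A = L
    · have h2 : cj y A ⊔ cj (a * y) A ≠ L := fun h => hcon ⟨y, hy, h1, h⟩
      have hayL : a * y ∈ L := L.mul_mem (hAL ha) hy
      have hayA : cj (a * y) A ≤ L := by
        have := cj_mono (g := a * y) hAL
        rwa [cj_eq_self_of_mem hayL] at this
      have hM'L : cj y A ⊔ cj (a * y) A ≤ L := sup_le hyA hayA
      have hM'2 : IsPGroup 2 ↥(cj y A ⊔ cj (a * y) A) := by
        apply h2grp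
        exact sup_le (hminc _ hM'L h2 y hy le_sup_left) (hminc _ hM'L h2 (a * y) hayL le_sup_right)
      have hza : IsPGroup 2 (Subgroup.zpowers a) := by
        rw [Cfsg.Agent.Lib.Helper64.isPGroup_iff_mem]
        rintro h ⟨k, rfl⟩
        refine ⟨1, ?_⟩
        show (a ^ k) ^ 2 ^ 1 = 1
        rw [pow_one, pow_two, ← zpow_add, ← two_mul, zpow_mul, zpow_two, hA2 a ha, one_zpow]
      have hnorm : Subgroup.zpowers a ≤
          Subgroup.normalizer ((cj y A ⊔ cj (a * y) A : Subgroup H) : Set H) := by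
        rw [Subgroup.zpowers_le, mem_normalizer_iff_cj]
        show (cj y A ⊔ cj (a * y) A).map _ = _
        rw [Subgroup.map_sup]
        show cj a (cj y A) ⊔ cj a (cj (a * y) A) = _
        rw [← cj_mul, ← cj_mul, ← mul_assoc, hA2 a ha, one_mul, sup_comm]
      refine ⟨Subgroup.zpowers a ⊔ (cj y A ⊔ cj (a * y) A),
        IsPGroup.to_sup_of_normal_right' hza hM'2 hnorm, ?_, ?_⟩
      · exact (le_sup_left : Subgroup.zpowers a ≤ _) (Subgroup.mem_zpowers a)
      · exact (le_sup_right : (cj y A ⊔ cj (a * y) A) ≤ _)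
          ((le_sup_left : cj y A ≤ _) (conj_mem_cj ha))
    · have hML : A ⊔ cj y A ≤ L := sup_le hAL hyA
      exact ⟨A ⊔ cj y A,
        h2grp _ (sup_le (hmin _ hML h1 le_sup_left) (hminc _ hML h1 y hy le_sup_right)),
        (le_sup_left : A ≤ _) ha, (le_sup_right : cj y A ≤ _) (conj_mem_cj ha)⟩
  have h2f : Fact (Nat.Prime 2) := ⟨Nat.prime_two⟩
  let a' : ↥L := ⟨a, hAL ha⟩
  have hBS : ∀ g : ↥L, IsPGroup 2
      ↥(Subgroup.zpowers a' ⊔ (Subgroup.zpowers a').map (MulAut.conj g).toMonoidHom) := by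
    rintro ⟨y, hy⟩
    obtain ⟨P, hP2, haP, hyaP⟩ := hP y hy
    have h1 : IsPGroup 2 (P.comap L.subtype) := hP2.comap_of_injective _ L.subtype_injective
    apply h1.to_le
    apply sup_le
    · rw [Subgroup.zpowers_le]; exact haP
    · rw [Subgroup.map_le_iff_le_comap, Subgroup.zpowers_le]
      show y * a * y⁻¹ ∈ P
      exact hyaP
  obtain ⟨N, hNn, hN2, hXN⟩ :=
    Cfsg.Agent.Lib.Helper64.baerSuzuki_subgroup 2 (Subgroup.zpowers a') hBS
  apply haR
  exact ⟨a', le_pCore hNn hN2 (hXN (Subgroup.mem_zpowers a')), rfl⟩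

end O2

section main

variable {H : Type*} [Group H] [Finite H] {V : Type*} [AddCommGroup V] [Finite V]
  [DistribMulAction H V]

/-- Two subgroups of fixed points with sum inside a third. -/
theorem card_mul_le_of_le {W U T : AddSubgroup V} (hW : W ≤ T) (hU : U ≤ T) :
    Nat.card W * Nat.card U ≤ Nat.card ↥(W ⊓ U) * Nat.card T := by
  let f : ↥W × ↥U → ↥T := fun t => ⟨(t.1 : V) + (t.2 : V), T.add_mem (hW t.1.2) (hU t.2.2)⟩
  have hfib : ∀ t, Nat.card {t' // f t' = f t} ≤ Nat.card ↥(W ⊓ U) := by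
    intro t
    have hkey : ∀ t' : {t' // f t' = f t}, ((t'.1.1 : V) - (t.1 : V)) = (t.2 : V) - (t'.1.2 : V) := by
      intro t'
      have h1 : (t'.1.1 : V) + (t'.1.2 : V) = (t.1 : V) + (t.2 : V) := congrArg Subtype.val t'.2
      rw [sub_eq_sub_iff_add_eq_add, h1, add_comm]
    let φ : {t' // f t' = f t} → ↥(W ⊓ U) := fun t' =>
      ⟨(t'.1.1 : V) - (t.1 : V), W.sub_mem t'.1.1.2 t.1.2, by
        rw [hkey t']; exact U.sub_mem t.2.2 t'.1.2.2⟩
    apply Nat.card_le_card_of_injective φ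
    intro t' t'' h
    have h1 : (t'.1.1 : V) - (t.1 : V) = (t''.1.1 : V) - (t.1 : V) := congrArg Subtype.val h
    have h2 : (t'.1.1 : V) = (t''.1.1 : V) := sub_left_injective h1
    have h3 : (t'.1.2 : V) = (t''.1.2 : V) := by
      have k1 := hkey t'
      have k2 := hkey t''
      rw [h1, k2] at k1
      exact (sub_right_injective k1).symm
    apply Subtype.ext
    apply Prod.ext
    · exact Subtype.ext h2
    · exact Subtype.ext h3
  have h := card_le_mul_of_fibers f _ hfib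
  rwa [Nat.card_prod] at h

/-- **No offenders.** -/
theorem noOffender (h2 : ∀ v : V, v + v = 0) (hf : ∀ g : H, (∀ v : V, g • v = v) → g = 1)
    (hcore : pCore 2 H = ⊥) (S₀ : Sylow 2 H)
    (hq : ∀ s ∈ (S₀ : Subgroup H), ∀ t ∈ (S₀ : Subgroup H), ∀ v : V,
      s • (t • v - v) = t • v - v) :
    ∀ n : ℕ, ∀ A : Subgroup H, Nat.card A = n → IsPGroup 2 A → A ≠ ⊥ →
      (∀ a ∈ A, ∀ x : H, ∀ a' ∈ A, ¬ 3 ∣ orderOf (a * (x * a' * x⁻¹))) →
      2 * Nat.card A * Nat.card ↥(fixV (V := V) A) ≤ Nat.card V := by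
  have h2f : Fact (Nat.Prime 2) := ⟨Nat.prime_two⟩
  have hquadP : ∀ P : Subgroup H, IsPGroup 2 P → ∀ s ∈ P, ∀ t ∈ P, ∀ v : V,
      s • (t • v - v) = t • v - v := by
    intro P hP s hs t ht v
    obtain ⟨Q, hPQ⟩ := hP.exists_le_sylow
    obtain ⟨g, hg⟩ := MulAction.exists_smul_eq H S₀ Q
    have hmem : ∀ z ∈ P, g⁻¹ * z * g ∈ (S₀ : Subgroup H) := by
      intro z hz
      have h1 : z ∈ (Q : Subgroup H) := hPQ hz
      rw [← hg, Sylow.coe_subgroup_smul, Subgroup.mem_pointwise_smul_iff_inv_smul_mem] at h1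
      simpa [MulAut.smul_def] using h1
    have key := hq _ (hmem s hs) _ (hmem t ht) (g⁻¹ • v)
    have e1 : (g⁻¹ * t * g) • g⁻¹ • v - g⁻¹ • v = g⁻¹ • (t • v - v) := by
      rw [mul_smul, mul_smul, smul_inv_smul, smul_sub]
    rw [e1, mul_smul, mul_smul, smul_inv_smul] at key
    exact smul_left_cancel _ key
  have hinv : ∀ P : Subgroup H, IsPGroup 2 P → ∀ s ∈ P, s * s = 1 := by
    intro P hP s hs
    apply hf
    intro v
    exact sq_smul_of_quad h2 (hquadP P hP s hs s hs v)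
  intro n
  induction n using Nat.strong_induction_on with
  | _ n ih =>
  intro A hAn hA2grp hAne hS3
  have hA2 : ∀ a ∈ A, a * a = 1 := hinv A hA2grp
  -- a minimal subgroup `L` with `A ≰ O_2(L)`
  have hex : ∃ L : Subgroup H, A ≤ L ∧ ¬ A ≤ O2 L := by
    refine ⟨⊤, le_top, fun h => hAne ?_⟩
    have hn : (O2 (⊤ : Subgroup H)).Normal :=
      ⟨fun x hx g => O2_conj_mem (Subgroup.mem_top g) hx⟩
    have h3 := le_pCore hn (O2_isPGroup ⊤)
    rw [hcore] at h3
    exact le_bot_iff.1 (h.trans h3)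
  obtain ⟨L, ⟨hAL, hnot⟩, hLmin⟩ := exists_min_card (fun L : Subgroup H => A ≤ L ∧ ¬ A ≤ O2 L)
    (fun L => Nat.card L) hex
  have hmin : ∀ M : Subgroup H, M ≤ L → M ≠ L → A ≤ M → A ≤ O2 M := by
    intro M hML hne hAM
    by_contra h
    have h3 := hLmin M ⟨hAM, h⟩
    exact absurd (card_lt_of_lt (lt_of_le_of_ne hML hne)) (not_lt.2 h3)
  obtain ⟨R, hRdef⟩ : ∃ R : Subgroup H, R = O2 L := ⟨_, rfl⟩
  rw [← hRdef] at hnot
  have hR2 : IsPGroup 2 R := by rw [hRdef]; exact O2_isPGroup L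
  have hBS : ∀ a ∈ A, a ∉ R → ∃ y ∈ L, A ⊔ cj y A = L ∧ cj y A ⊔ cj (a * y) A = L := by
    intro a ha haR
    rw [hRdef] at haR
    exact exists_gen hAL hA2 hmin ha haR
  obtain ⟨a₀, ha₀, ha₀R⟩ := SetLike.not_le_iff_exists.1 hnot
  obtain ⟨x, hx, hgen, -⟩ := hBS a₀ ha₀ ha₀R
  have hx' : x⁻¹ ∈ L := L.inv_mem hx
  obtain ⟨U, hUdef⟩ : ∃ U : AddSubgroup V,
      U = comm A (⊤ : AddSubgroup V) ⊔ x • comm A (⊤ : AddSubgroup V) := ⟨_, rfl⟩
  have hsubU : ∀ g ∈ L, ∀ v : V, g • v - v ∈ U := by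
    intro g hg v
    rw [hUdef]
    exact sub_mem_comm_sup (U := (⊤ : AddSubgroup V)) (fun _ _ _ _ => AddSubgroup.mem_top _)
      hx hgen g hg v (AddSubgroup.mem_top v)
  have hUinv : ∀ g ∈ L, ∀ u ∈ U, g • u ∈ U := by
    intro g hg u hu
    have e : g • u = u + (g • u - u) := by abel
    rw [e]
    exact U.add_mem hu (hsubU g hg u)
  have hRn : L ≤ Subgroup.normalizer (R : Set H) := by rw [hRdef]; exact le_normalizer_O2 L
  have hRA2 : IsPGroup 2 ↥(R ⊔ A) := IsPGroup.to_sup_of_normal_left' hR2 hA2grp (hAL.trans hRn)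
  have hR_I : comm A (⊤ : AddSubgroup V) ≤ fixV R := by
    rw [comm, AddSubgroup.closure_le]
    rintro w ⟨a, ha, u, -, rfl⟩
    intro r hr
    exact hquadP _ hRA2 r ((le_sup_left : R ≤ _) hr) a ((le_sup_right : A ≤ _) ha) u
  have hR_U : ∀ r ∈ R, ∀ u ∈ U, r • u = u := by
    have h3 : U ≤ fixV R := by
      rw [hUdef]
      refine sup_le hR_I ?_
      intro m hm
      obtain ⟨i, hi, rfl⟩ := (AddSubgroup.mem_smul_pointwise_iff_exists _ _ _).1 hm
      intro r hr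
      have hr' : x⁻¹ * r * x ∈ R := by
        have h4 : x⁻¹ * r * x⁻¹⁻¹ ∈ O2 L := O2_conj_mem hx' (hRdef ▸ hr)
        rw [inv_inv] at h4
        rw [hRdef]
        exact h4
      have h5 := hR_I hi _ hr'
      have e : r • x • i = x • (x⁻¹ * r * x) • i := by
        rw [← mul_smul, ← mul_smul]
        congr 1
        group
      rw [e, h5]
    exact fun r hr u hu => h3 hu r hr
  have h6 : ∀ g ∈ L, (∀ u ∈ U, g • u = u) → g ∈ R := by
    intro g hg hgU
    have hK2 : IsPGroup 2 (trivOn L U ⊥ hUinv) := by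
      rw [Cfsg.Agent.Lib.Helper64.isPGroup_iff_mem]
      rintro k ⟨hkL, hk⟩
      refine ⟨1, ?_⟩
      rw [pow_one, pow_two]
      apply hf
      intro v
      apply sq_smul_of_quad h2
      have h3 := hk _ (hsubU k hkL v)
      rw [AddSubgroup.mem_bot, sub_eq_zero] at h3
      exact h3
    have hKn : ∀ g ∈ L, ∀ k ∈ trivOn L U ⊥ hUinv, g * k * g⁻¹ ∈ trivOn L U ⊥ hUinv := by
      rintro g hg k ⟨hkL, hk⟩
      refine ⟨L.mul_mem (L.mul_mem hg hkL) (L.inv_mem hg), fun u hu => ?_⟩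
      have h3 := hk _ (hUinv _ (L.inv_mem hg) u hu)
      rw [AddSubgroup.mem_bot] at h3 ⊢
      rw [conj_smul_sub, h3, smul_zero]
    have hKL : trivOn L U ⊥ hUinv ≤ L := fun k hk => hk.1
    have h3 := le_O2 hKL hK2 hKn
    rw [hRdef]
    apply h3
    refine ⟨hg, fun u hu => ?_⟩
    rw [AddSubgroup.mem_bot, hgU u hu, sub_self]
  have hL2 : ¬ IsPGroup 2 L := by
    intro h
    apply hnot
    rw [hRdef]
    exact hAL.trans (le_O2 le_rfl h
      (fun g hg x hx => L.mul_mem (L.mul_mem hg hx) (L.inv_mem hg)))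
  have hs : Setup L A R U :=
    { h2 := h2
      hAL := hAL
      hA2 := hA2
      hU := hUinv
      h1 := hR_U
      h6 := h6
      hR2 := hR2
      hBS := hBS
      hquad := fun a ha a' ha' u _ => hquadP A hA2grp a ha a' ha' u
      hL2 := hL2
      hnot := hnot
      hS3 := fun a ha x _ a' ha' => hS3 a ha x a' ha' }
  have hI := hs.caseI
  have hUB : U ≤ fixV (A ⊓ R) := fun u hu b hb => hR_U b hb.2 u hu
  have hAB : fixV (V := V) A ≤ fixV (A ⊓ R) := fixV_anti inf_le_left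
  have hsum := card_mul_le_of_le hAB hUB
  have hQB : Nat.card ↥(A ⊓ R) * Nat.card ↥(fixV (V := V) (A ⊓ R)) ≤ Nat.card V := by
    by_cases hB : A ⊓ R = ⊥
    · rw [hB, Subgroup.card_bot, one_mul]
      exact Nat.card_le_card_of_injective _ Subtype.val_injective
    · have hlt : Nat.card ↥(A ⊓ R) < n := by
        rw [← hAn]
        apply card_lt_of_lt
        refine lt_of_le_of_ne inf_le_left (fun h => hnot ?_)
        rw [← h]
        exact inf_le_right
      have h3 := ih _ hlt (A ⊓ R) rfl (hA2grp.to_le inf_le_left) hB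
        (fun a ha x a' ha' => hS3 a ha.1 x a' ha'.1)
      calc Nat.card ↥(A ⊓ R) * Nat.card ↥(fixV (V := V) (A ⊓ R))
          ≤ 2 * (Nat.card ↥(A ⊓ R) * Nat.card ↥(fixV (V := V) (A ⊓ R))) :=
            Nat.le_mul_of_pos_left _ two_pos
        _ = 2 * Nat.card ↥(A ⊓ R) * Nat.card ↥(fixV (V := V) (A ⊓ R)) := by ring
        _ ≤ Nat.card V := h3
  have hpos : 0 < Nat.card U := Nat.card_pos
  apply Nat.le_of_mul_le_mul_right _ hpos
  calc 2 * Nat.card A * Nat.card ↥(fixV (V := V) A) * Nat.card U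
      = 2 * Nat.card A * (Nat.card ↥(fixV (V := V) A) * Nat.card U) := by ring
    _ ≤ 2 * Nat.card A * (Nat.card ↥(fixV (V := V) A ⊓ U) * Nat.card ↥(fixV (V := V) (A ⊓ R))) :=
        Nat.mul_le_mul_left _ hsum
    _ = (2 * Nat.card A * Nat.card ↥(fixV (V := V) A ⊓ U)) *
        Nat.card ↥(fixV (V := V) (A ⊓ R)) := by ring
    _ ≤ (Nat.card ↥(A ⊓ R) * Nat.card U) * Nat.card ↥(fixV (V := V) (A ⊓ R)) :=
        Nat.mul_le_mul_right _ hI
    _ = (Nat.card ↥(A ⊓ R) * Nat.card ↥(fixV (V := V) (A ⊓ R))) * Nat.card U := by ring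
    _ ≤ Nat.card V * Nat.card U := Nat.mul_le_mul_right _ hQB

end main

end Cfsg.Agent.Lib.Helper33.Ff
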