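import Mathlib
import Cfsg.Prelude.Def_Local
import Cfsg.Agent.Lib.Helper30.Bender

/-!
An automorphism of a finite group `G` with `O_{p'}(G) = 1` that fixes a Sylow `p`-subgroup and the
layer elementwise is inner (by Bender's theorem and an averaging argument over `G/T`).
-/

set_option autoImplicit false

namespace Cfsg.Agent.Lib.Helper33

open Cfsg

/-- A normal `p`-subgroup lies in every Sylow `p`-subgroup. -/
theorem normal_pgroup_le_sylow' {G : Type*} [Group G] [Finite G] {p : ℕ} [Fact p.Prime]
    {N : Subgroup G} [hN : N.Normal] (hp : IsPGroup p N) (T : Sylow p G) :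
    N ≤ (T : Subgroup G) := by
  obtain ⟨P, hP⟩ := hp.exists_le_sylow
  obtain ⟨g, hg⟩ := MulAction.exists_smul_eq G P T
  intro x hx
  have h1 : g⁻¹ * x * g ∈ (P : Subgroup G) := hP (by simpa using hN.conj_mem x hx g⁻¹)
  rw [← hg, Sylow.coe_subgroup_smul, Subgroup.mem_pointwise_smul_iff_inv_smul_mem]
  simpa [MulAut.smul_def] using h1

/-- With `O_{p'}(G) = 1`, a normal nilpotent subgroup is a `p`-group. -/
theorem isPGroup_of_normal_nilpotent' {G : Type*} [Group G] [Finite G] {p : ℕ} [hp : Fact p.Prime]
    (hcore : pPrimeCore p G = ⊥) (N : Subgroup G) [hNn : N.Normal] (hN : Group.IsNilpotent N) :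
    IsPGroup p N := by
  have key : ∀ q : ℕ, q.Prime → q ∣ Nat.card N → q = p := by
    intro q hq hdvd
    by_contra hne
    have : Fact q.Prime := ⟨hq⟩
    obtain ⟨Q⟩ : Nonempty (Sylow q N) := inferInstance
    have hQn : (Q : Subgroup N).Normal := inferInstance
    have hQc : (Q : Subgroup N).Characteristic := Sylow.characteristic_of_normal Q hQn
    have hmapn : ((Q : Subgroup N).map N.subtype).Normal := inferInstance
    have hcop : (Nat.card ((Q : Subgroup N).map N.subtype)).Coprime p := by
      rw [Subgroup.card_map_of_injective N.subtype_injective]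
      obtain ⟨k, hk⟩ := (IsPGroup.iff_card).1 Q.isPGroup'
      rw [hk]
      exact Nat.Coprime.pow_left _ ((Nat.coprime_primes hq hp.out).2 hne)
    have hle : (Q : Subgroup N).map N.subtype ≤ pPrimeCore p G := le_sSup ⟨hmapn, hcop⟩
    rw [hcore, le_bot_iff, Subgroup.map_eq_bot_iff_of_injective _ N.subtype_injective] at hle
    exact Q.ne_bot_of_dvd_card hdvd hle
  have h2 := Nat.eq_prime_pow_of_unique_prime_dvd (n := Nat.card N) (p := p) Nat.card_pos.ne'
    (fun {d} hd hdn => key d hd hdn)
  exact IsPGroup.of_card h2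

/-- An automorphism of a finite group `G` with `O_{p'}(G) = 1` fixing a Sylow `p`-subgroup and
the layer elementwise is inner. -/
theorem inner_of_fix_sylow_layer {G : Type*} [Group G] [Finite G] {p : ℕ} [Fact p.Prime]
    (hcore : pPrimeCore p G = ⊥) (T : Sylow p G) (α : MulAut G)
    (hfixT : ∀ x ∈ (T : Subgroup G), α x = x) (hfixE : ∀ x ∈ layer G, α x = x) :
    ∃ g : G, ∀ x : G, α x = g * x * g⁻¹ := by
  classical
  have hFT : fittingSubgroup G ≤ (T : Subgroup G) := by
    apply sSup_le
    rintro N ⟨hNn, hNnil⟩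
    have := hNn
    exact normal_pgroup_le_sylow' (isPGroup_of_normal_nilpotent' hcore N hNnil) T
  let Fix : Subgroup G :=
    { carrier := {x | α x = x}
      mul_mem' := fun {a b} ha hb => by
        simp only [Set.mem_ofPred_eq] at ha hb ⊢
        rw [map_mul, ha, hb]
      one_mem' := map_one α
      inv_mem' := fun {a} ha => by
        simp only [Set.mem_ofPred_eq] at ha ⊢
        rw [map_inv, ha] }
  have hFix : ∀ x, x ∈ Fix → α x = x := fun x hx => hx
  have hFstar : generalizedFittingSubgroup G ≤ Fix :=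
    sup_le (fun x hx => hfixE x hx) (fun x hx => hfixT x (hFT hx))
  have hFn : (generalizedFittingSubgroup G).Normal :=
    Cfsg.Agent.Lib.Helper29.generalizedFittingSubgroup_normal G
  have hCn : (Subgroup.centralizer (generalizedFittingSubgroup G : Set G)).Normal := inferInstance
  have hCF : Subgroup.centralizer (generalizedFittingSubgroup G : Set G) ≤
      generalizedFittingSubgroup G :=
    Cfsg.Agent.Lib.Helper30.centralizer_generalizedFittingSubgroup_le G
  generalize hCdef : Subgroup.centralizer (generalizedFittingSubgroup G : Set G) = C at hCn hCF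
  have hCcomm : ∀ a ∈ C, ∀ b ∈ C, a * b = b * a := by
    intro a ha b hb
    rw [← hCdef] at hb
    exact Subgroup.mem_centralizer_iff.1 hb a (hCF ha)
  have hCT : C ≤ (T : Subgroup G) :=
    (Cfsg.Agent.Lib.Helper30.subnormal_comm_le_fitting hCn.isSubnormal hCcomm).trans hFT
  have hCp : IsPGroup p C := T.isPGroup'.to_le hCT
  have hd : ∀ x : G, α x * x⁻¹ ∈ C := by
    intro x
    rw [← hCdef, Subgroup.mem_centralizer_iff]
    intro f hf
    have h1 : α (x⁻¹ * f * x) = x⁻¹ * f * x :=
      hFix _ (hFstar (by simpa using hFn.conj_mem f hf x⁻¹))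
    have h2 : α f = f := hFix _ (hFstar hf)
    rw [map_mul, map_mul, map_inv, h2] at h1
    calc f * (α x * x⁻¹) = α x * ((α x)⁻¹ * f * α x) * x⁻¹ := by group
      _ = α x * (x⁻¹ * f * x) * x⁻¹ := by rw [h1]
      _ = α x * x⁻¹ * f := by group
  let instC : CommGroup C := { (inferInstance : Group C) with
    mul_comm := fun a b => Subtype.ext (hCcomm a a.2 b b.2) }
  let d : G → C := fun x => ⟨α x * x⁻¹, hd x⟩
  have hdmul : ∀ x y : G, d (x * y) = d x * MulAut.conjNormal x (d y) := by
    intro x y
    apply Subtype.ext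
    show α (x * y) * (x * y)⁻¹ = α x * x⁻¹ * (x * (α y * y⁻¹) * x⁻¹)
    rw [map_mul]
    group
  have hdT : ∀ (g t : G), t ∈ (T : Subgroup G) → d (g * t) = d g := by
    intro g t ht
    apply Subtype.ext
    show α (g * t) * (g * t)⁻¹ = α g * g⁻¹
    rw [map_mul, hfixT t ht]
    group
  have instF : Fintype (G ⧸ (T : Subgroup G)) := Fintype.ofFinite _
  set w : C := ∏ q : G ⧸ (T : Subgroup G), d q.out with hw
  have hwx : ∀ x : G, w = d x ^ (T : Subgroup G).index * MulAut.conjNormal x w := by
    intro x
    have h1 : ∏ q : G ⧸ (T : Subgroup G), d ((MulAction.toPerm x q).out) = w :=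
      Equiv.prod_comp (MulAction.toPerm x) (fun q : G ⧸ (T : Subgroup G) => d q.out)
    have h2 : ∀ q : G ⧸ (T : Subgroup G), d ((MulAction.toPerm x q).out) =
        d x * MulAut.conjNormal x (d q.out) := by
      intro q
      rw [← hdmul]
      have h3 : (QuotientGroup.mk (x * q.out) : G ⧸ (T : Subgroup G)) =
          QuotientGroup.mk ((MulAction.toPerm x q).out) := by
        rw [QuotientGroup.out_eq']
        show _ = x • q
        conv_rhs => rw [← QuotientGroup.out_eq' q]
        rfl
      have h4 := QuotientGroup.eq.1 h3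
      have h5 : (MulAction.toPerm x q).out = (x * q.out) * ((x * q.out)⁻¹ *
          (MulAction.toPerm x q).out) := by group
      rw [h5]
      exact hdT _ _ h4
    calc w = ∏ q : G ⧸ (T : Subgroup G), d ((MulAction.toPerm x q).out) := h1.symm
      _ = ∏ q : G ⧸ (T : Subgroup G), d x * MulAut.conjNormal x (d q.out) :=
        Finset.prod_congr rfl (fun q _ => h2 q)
      _ = d x ^ (T : Subgroup G).index * MulAut.conjNormal x w := by
        rw [Finset.prod_mul_distrib, Finset.prod_const, Finset.card_univ, ← map_prod,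
          ← Nat.card_eq_fintype_card]
        rfl
  have hcop : (Nat.card C).Coprime (T : Subgroup G).index := by
    obtain ⟨k, hk⟩ := (IsPGroup.iff_card).1 hCp
    rw [hk]
    exact Nat.Coprime.pow_left _ ((Nat.Prime.coprime_iff_not_dvd (Fact.out)).2 T.not_dvd_index)
  obtain ⟨z, hz⟩ := (powCoprime hcop).surjective w
  have hz' : z ^ (T : Subgroup G).index = w := hz
  refine ⟨(z : G), ?_⟩
  intro x
  have h1 : d x ^ (T : Subgroup G).index =
      (z * (MulAut.conjNormal x z)⁻¹) ^ (T : Subgroup G).index := by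
    rw [mul_pow, inv_pow, ← map_pow, hz']
    have := hwx x
    rw [eq_mul_inv_iff_mul_eq]
    exact this.symm
  have h2 : d x = z * (MulAut.conjNormal x z)⁻¹ := (powCoprime hcop).injective h1
  have h3 : α x * x⁻¹ = (z : G) * (x * z * x⁻¹)⁻¹ := by
    have := congrArg (Subtype.val) h2
    simpa using this
  calc α x = (α x * x⁻¹) * x := by group
    _ = (z : G) * (x * z * x⁻¹)⁻¹ * x := by rw [h3]
    _ = z * x * (z : G)⁻¹ := by group

end Cfsg.Agent.Lib.Helper33
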