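import Mathlib
import Cfsg.Prelude.Def_ConjugacyFunctors
import Cfsg.Prelude.Def_PLocal
import Cfsg.Prelude.Def_LocalEven
import Cfsg.Prelude.Def_Amalgam
import Cfsg.Prelude.Def_Transfer
import Cfsg.Agent.Lib.Helper33.K6
import Cfsg.Agent.Lib.Helper55.Cores

set_option autoImplicit false

universe u

namespace Cfsg.Agent.Lib.Helper33

open Cfsg

open scoped commutatorElement

section trace

open scoped IsMulCommutative

variable {G : Type*} [Group G] [Finite G]

/-- The trace map from `C_V(T)` to `C_V(N)` for an abelian subgroup `V` normalized by `N ≥ T`. -/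
theorem exists_trace (V N T : Subgroup G) (hVab : ∀ a ∈ V, ∀ b ∈ V, a * b = b * a)
    (hNV : N ≤ Subgroup.normalizer (V : Set G)) :
    ∃ f : G → G,
      (∀ z ∈ V ⊓ Subgroup.centralizer (T : Set G), f z ∈ V ⊓ Subgroup.centralizer (N : Set G)) ∧
      (∀ z ∈ V, ∀ z' ∈ V, f (z * z') = f z * f z') ∧
      (∀ w ∈ V ⊓ Subgroup.centralizer (N : Set G), f w = w ^ T.relIndex N) := by
  classical
  have hcomm : IsMulCommutative ↥V := ⟨⟨fun a b => Subtype.ext (hVab a a.2 b b.2)⟩⟩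
  have : Fintype (↥N ⧸ T.subgroupOf N) := Fintype.ofFinite _
  obtain ⟨Gv, hGv⟩ : ∃ Gv : G → ↥N → ↥V, ∀ z, z ∈ V → ∀ n : ↥N,
      (Gv z n : G) = (n : G) * z * (n : G)⁻¹ := by
    refine ⟨fun z n => if hz : z ∈ V then
      ⟨(n : G) * z * (n : G)⁻¹, (Subgroup.mem_normalizer_iff.1 (hNV n.2) z).1 hz⟩ else 1, ?_⟩
    intro z hz n
    simp only [dif_pos hz]
  have hconj : ∀ a : ↥N, ∃ φ : ↥V →* ↥V, ∀ v : ↥V, (φ v : G) = (a : G) * v * (a : G)⁻¹ := by
    intro a
    refine ⟨{ toFun := fun v => ⟨(a : G) * v * (a : G)⁻¹,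
                (Subgroup.mem_normalizer_iff.1 (hNV a.2) v).1 v.2⟩
              map_one' := ?_
              map_mul' := ?_ }, fun v => rfl⟩
    · apply Subtype.ext
      show (a : G) * (1 : G) * (a : G)⁻¹ = 1
      group
    · intro x y
      apply Subtype.ext
      show (a : G) * ((x : G) * (y : G)) * (a : G)⁻¹ =
        ((a : G) * (x : G) * (a : G)⁻¹) * ((a : G) * (y : G) * (a : G)⁻¹)
      group
  have hsmul : ∀ (a : ↥N) (q : ↥N ⧸ T.subgroupOf N), a • q = QuotientGroup.mk (a * q.out) := by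
    intro a q
    conv_lhs => rw [← QuotientGroup.out_eq' q]
    rfl
  refine ⟨fun z => ((∏ q : ↥N ⧸ T.subgroupOf N, Gv z q.out : ↥V) : G), ?_, ?_, ?_⟩
  · intro z hz
    obtain ⟨hzV, hzT⟩ := Subgroup.mem_inf.1 hz
    have hGout : ∀ n : ↥N, Gv z ((QuotientGroup.mk n : ↥N ⧸ T.subgroupOf N).out) = Gv z n := by
      intro n
      obtain ⟨t, e⟩ := QuotientGroup.mk_out_eq_mul (T.subgroupOf N) n
      apply Subtype.ext
      rw [hGv z hzV, hGv z hzV, e]
      have htT : ((t : ↥N) : G) ∈ T := Subgroup.mem_subgroupOf.1 t.2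
      have h1 := Subgroup.mem_centralizer_iff.1 hzT _ htT
      show (n : G) * ((t : ↥N) : G) * z * ((n : G) * ((t : ↥N) : G))⁻¹ = (n : G) * z * (n : G)⁻¹
      calc (n : G) * ((t : ↥N) : G) * z * ((n : G) * ((t : ↥N) : G))⁻¹
          = (n : G) * (((t : ↥N) : G) * z) * ((t : ↥N) : G)⁻¹ * (n : G)⁻¹ := by group
        _ = (n : G) * (z * ((t : ↥N) : G)) * ((t : ↥N) : G)⁻¹ * (n : G)⁻¹ := by rw [h1]
        _ = (n : G) * z * (n : G)⁻¹ := by group
    refine Subgroup.mem_inf.2 ⟨Subtype.property _, ?_⟩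
    rw [Subgroup.mem_centralizer_iff]
    intro a ha
    obtain ⟨φ, hφ⟩ := hconj ⟨a, ha⟩
    have h1 : φ (∏ q : ↥N ⧸ T.subgroupOf N, Gv z q.out) =
        ∏ q : ↥N ⧸ T.subgroupOf N, Gv z q.out := by
      rw [map_prod]
      have h2 : ∀ q : ↥N ⧸ T.subgroupOf N, φ (Gv z q.out) =
          Gv z (((⟨a, ha⟩ : ↥N) • q).out) := by
        intro q
        rw [hsmul, hGout]
        apply Subtype.ext
        rw [hφ, hGv z hzV, hGv z hzV]
        show a * ((q.out : G) * z * (q.out : G)⁻¹) * a⁻¹ = a * (q.out : G) * z * (a * (q.out : G))⁻¹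
        group
      simp_rw [h2]
      exact Equiv.prod_comp (MulAction.toPerm (⟨a, ha⟩ : ↥N))
        (fun q : ↥N ⧸ T.subgroupOf N => Gv z q.out)
    have h3 := congrArg Subtype.val h1
    rw [hφ] at h3
    show a * ((∏ q : ↥N ⧸ T.subgroupOf N, Gv z q.out : ↥V) : G) =
      ((∏ q : ↥N ⧸ T.subgroupOf N, Gv z q.out : ↥V) : G) * a
    calc a * ((∏ q : ↥N ⧸ T.subgroupOf N, Gv z q.out : ↥V) : G)
        = a * ((∏ q : ↥N ⧸ T.subgroupOf N, Gv z q.out : ↥V) : G) * a⁻¹ * a := by group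
      _ = ((∏ q : ↥N ⧸ T.subgroupOf N, Gv z q.out : ↥V) : G) * a := by rw [h3]
  · intro z hz z' hz'
    have h1 : ∀ n : ↥N, Gv (z * z') n = Gv z n * Gv z' n := by
      intro n
      apply Subtype.ext
      rw [Subgroup.coe_mul, hGv _ (mul_mem hz hz'), hGv z hz, hGv z' hz']
      group
    show ((∏ q : ↥N ⧸ T.subgroupOf N, Gv (z * z') q.out : ↥V) : G) =
      ((∏ q : ↥N ⧸ T.subgroupOf N, Gv z q.out : ↥V) : G) *
        ((∏ q : ↥N ⧸ T.subgroupOf N, Gv z' q.out : ↥V) : G)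
    simp_rw [h1]
    rw [Finset.prod_mul_distrib, Subgroup.coe_mul]
  · intro w hw
    obtain ⟨hwV, hwN⟩ := Subgroup.mem_inf.1 hw
    have h1 : ∀ n : ↥N, Gv w n = ⟨w, hwV⟩ := by
      intro n
      apply Subtype.ext
      rw [hGv w hwV]
      have h2 := Subgroup.mem_centralizer_iff.1 hwN (n : G) n.2
      show (n : G) * w * (n : G)⁻¹ = w
      rw [h2]; group
    show ((∏ q : ↥N ⧸ T.subgroupOf N, Gv w q.out : ↥V) : G) = w ^ T.relIndex N
    simp_rw [h1]
    rw [Finset.prod_const, Finset.card_univ, Subgroup.coe_pow]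
    have e : Fintype.card (↥N ⧸ T.subgroupOf N) = T.relIndex N := by
      rw [← Nat.card_eq_fintype_card]
      rfl
    rw [e]

end trace

section dfactor

variable {G : Type*} [Group G] [Finite G] {p : ℕ} [Fact p.Prime]

/-- A subgroup `W` of a `p`-group `Z` admitting a map `f : Z → W`, multiplicative on `Z`, which
is a power map of exponent prime to `p` on `W`, is a direct factor of `Z`. -/
theorem direct_factor_of_retraction (Z W : Subgroup G) (hZp : IsPGroup p Z) (hWZ : W ≤ Z)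
    (f : G → G) (m : ℕ) (hm : m.Coprime p) (hfW : ∀ z ∈ Z, f z ∈ W)
    (hfmul : ∀ z ∈ Z, ∀ z' ∈ Z, f (z * z') = f z * f z') (hfw : ∀ w ∈ W, f w = w ^ m) :
    ∃ K : Subgroup G, K ≤ Z ∧ W ⊓ K = ⊥ ∧ W ⊔ K = Z := by
  have hf1 : f 1 = 1 := by
    have h1 := hfmul 1 (one_mem _) 1 (one_mem _)
    rw [one_mul] at h1
    have h2 : f 1 * f 1 = f 1 * 1 := by rw [mul_one]; exact h1.symm
    exact mul_left_cancel h2
  obtain ⟨K, hK⟩ : ∃ K : Subgroup G, ∀ z, z ∈ K ↔ z ∈ Z ∧ f z = 1 := by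
    refine ⟨{ carrier := {z | z ∈ Z ∧ f z = 1}
              one_mem' := ⟨one_mem _, hf1⟩
              mul_mem' := ?_
              inv_mem' := ?_ }, fun z => Iff.rfl⟩
    · rintro a b ⟨ha, ha'⟩ ⟨hb, hb'⟩
      exact ⟨mul_mem ha hb, by rw [hfmul a ha b hb, ha', hb', one_mul]⟩
    · rintro a ⟨ha, ha'⟩
      refine ⟨inv_mem ha, ?_⟩
      have h1 := hfmul a ha a⁻¹ (inv_mem ha)
      rw [mul_inv_cancel, hf1, ha', one_mul] at h1
      exact h1.symm
  have hKZ : K ≤ Z := fun z hz => ((hK z).1 hz).1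
  have hWp : IsPGroup p W := hZp.to_le hWZ
  refine ⟨K, hKZ, ?_, ?_⟩
  · rw [eq_bot_iff]
    intro x hx
    obtain ⟨hxW, hxK⟩ := Subgroup.mem_inf.1 hx
    have h1 : x ^ m = 1 := by rw [← hfw x hxW]; exact ((hK x).1 hxK).2
    obtain ⟨k, hk⟩ := hWp ⟨x, hxW⟩
    have hk' : x ^ p ^ k = 1 := congrArg Subtype.val hk
    have h2 : orderOf x ∣ Nat.gcd m (p ^ k) :=
      Nat.dvd_gcd (orderOf_dvd_of_pow_eq_one h1) (orderOf_dvd_of_pow_eq_one hk')
    rw [Nat.Coprime.gcd_eq_one (Nat.Coprime.pow_right k hm), Nat.dvd_one, orderOf_eq_one_iff] at h2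
    rw [Subgroup.mem_bot]
    exact h2
  · apply le_antisymm (sup_le hWZ hKZ)
    intro z hz
    obtain ⟨j, hj⟩ := IsPGroup.iff_card.1 hWp
    have hcop : (Nat.card ↥W).Coprime m := by
      rw [hj]; exact (Nat.Coprime.pow_right j hm).symm
    obtain ⟨w', hw'⟩ : ∃ w' : ↥W, w' ^ m = ⟨f z, hfW z hz⟩ :=
      ⟨(powCoprime hcop).symm ⟨f z, hfW z hz⟩, (powCoprime hcop).apply_symm_apply _⟩
    have hw'' : (w' : G) ^ m = f z := congrArg Subtype.val hw'
    have e : z = (w' : G) * ((w' : G)⁻¹ * z) := by group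
    rw [e]
    refine Subgroup.mul_mem_sup w'.2 ((hK _).2 ⟨mul_mem (inv_mem (hWZ w'.2)) hz, ?_⟩)
    rw [hfmul _ (inv_mem (hWZ w'.2)) z hz, hfw _ (inv_mem w'.2), inv_pow, hw'', inv_mul_cancel]

end dfactor

section main

variable {G : Type*} [Group G] [Finite G] {p : ℕ} [Fact p.Prime]

omit [Finite G] [Fact p.Prime] in
theorem normalizer_le_normalizer_center (P : Subgroup G) :
    Subgroup.normalizer (P : Set G) ≤
      Subgroup.normalizer ((P ⊓ Subgroup.centralizer (P : Set G) : Subgroup G) : Set G) := by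
  intro n hn
  have h1 : cj n P = P := mem_normalizer_iff_cj.1 hn
  rw [mem_normalizer_iff_cj, cj_inf, cj_centralizer, h1]

/-- If the elements of `S` centralized by a subgroup `N ≥ S`, which normalizes an abelian
subgroup `V` of `S` containing `Z(S)`, are weakly closed in `S`, then the weakly closed elements
of `S` form a direct factor of `Z(S)`. -/
theorem wc_direct_factor (S : Sylow p G) (V N : Subgroup G)
    (hVab : ∀ a ∈ V, ∀ b ∈ V, a * b = b * a) (hSN : (S : Subgroup G) ≤ N)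
    (hNV : N ≤ Subgroup.normalizer (V : Set G))
    (hZV : (S : Subgroup G) ⊓ Subgroup.centralizer ((S : Subgroup G) : Set G) ≤ V)
    (hVS : V ≤ (S : Subgroup G))
    (hwc : ∀ x ∈ (S : Subgroup G) ⊓ Subgroup.centralizer (N : Set G), ∀ g : G,
      g * x * g⁻¹ ∈ (S : Subgroup G) → g * x * g⁻¹ = x) :
    ∃ W K : Subgroup G, (∀ x : G, x ∈ W ↔ (x ∈ (S : Subgroup G) ∧
        ∀ g : G, g * x * g⁻¹ ∈ (S : Subgroup G) → g * x * g⁻¹ = x)) ∧
      K ≤ (S : Subgroup G) ⊓ Subgroup.centralizer ((S : Subgroup G) : Set G) ∧ W ⊓ K = ⊥ ∧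
      W ⊔ K = (S : Subgroup G) ⊓ Subgroup.centralizer ((S : Subgroup G) : Set G) := by
  have hpS : IsPGroup p (S : Subgroup G) := S.2
  have hCNS : Subgroup.centralizer (N : Set G) ≤ Subgroup.centralizer ((S : Subgroup G) : Set G) :=
    Subgroup.centralizer_le hSN
  have hWZ : (S : Subgroup G) ⊓ Subgroup.centralizer (N : Set G) ≤
      (S : Subgroup G) ⊓ Subgroup.centralizer ((S : Subgroup G) : Set G) :=
    inf_le_inf_left _ hCNS
  obtain ⟨f, hf1, hf2, hf3⟩ := exists_trace V N (S : Subgroup G) hVab hNV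
  have hm : ((S : Subgroup G).relIndex N).Coprime p := by
    have h1 : (S : Subgroup G).relIndex N ∣ (S : Subgroup G).index :=
      Subgroup.relIndex_dvd_index_of_le hSN
    have h2 : ((S : Subgroup G).index).Coprime p :=
      ((Nat.Prime.coprime_iff_not_dvd (Fact.out : p.Prime)).2 S.not_dvd_index).symm
    exact Nat.Coprime.coprime_dvd_left h1 h2
  have hA1 : ∀ z ∈ (S : Subgroup G) ⊓ Subgroup.centralizer ((S : Subgroup G) : Set G),
      f z ∈ (S : Subgroup G) ⊓ Subgroup.centralizer (N : Set G) := by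
    intro z hz
    have h1 := hf1 z (Subgroup.mem_inf.2 ⟨hZV hz, (Subgroup.mem_inf.1 hz).2⟩)
    exact Subgroup.mem_inf.2 ⟨hVS (Subgroup.mem_inf.1 h1).1, (Subgroup.mem_inf.1 h1).2⟩
  have hA2 : ∀ z ∈ (S : Subgroup G) ⊓ Subgroup.centralizer ((S : Subgroup G) : Set G),
      ∀ z' ∈ (S : Subgroup G) ⊓ Subgroup.centralizer ((S : Subgroup G) : Set G),
      f (z * z') = f z * f z' := by
    intro z hz z' hz'
    exact hf2 z (hZV hz) z' (hZV hz')
  have hA3 : ∀ w ∈ (S : Subgroup G) ⊓ Subgroup.centralizer (N : Set G),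
      f w = w ^ (S : Subgroup G).relIndex N := by
    intro w hw
    exact hf3 w (Subgroup.mem_inf.2 ⟨hZV (hWZ hw), (Subgroup.mem_inf.1 hw).2⟩)
  obtain ⟨K, hKZ, hWK, hWK'⟩ := direct_factor_of_retraction
    ((S : Subgroup G) ⊓ Subgroup.centralizer ((S : Subgroup G) : Set G))
    ((S : Subgroup G) ⊓ Subgroup.centralizer (N : Set G)) (hpS.to_le inf_le_left) hWZ f
    ((S : Subgroup G).relIndex N) hm hA1 hA2 hA3
  refine ⟨(S : Subgroup G) ⊓ Subgroup.centralizer (N : Set G), K, ?_, hKZ, hWK, hWK'⟩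
  intro x
  constructor
  · intro hx
    exact ⟨(Subgroup.mem_inf.1 hx).1, hwc x hx⟩
  · rintro ⟨hxS, hx⟩
    have hxC : x ∈ Subgroup.centralizer ((S : Subgroup G) : Set G) := by
      rw [Subgroup.mem_centralizer_iff]
      intro s hs
      have h1 := hx s (mul_mem (mul_mem hs hxS) (inv_mem hs))
      calc s * x = s * x * s⁻¹ * s := by group
        _ = x * s := by rw [h1]
    have hxV : x ∈ V := hZV (Subgroup.mem_inf.2 ⟨hxS, hxC⟩)
    refine Subgroup.mem_inf.2 ⟨hxS, ?_⟩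
    rw [Subgroup.mem_centralizer_iff]
    intro n hn
    have h1 : n * x * n⁻¹ ∈ V := (Subgroup.mem_normalizer_iff.1 (hNV hn) x).1 hxV
    have h2 := hx n (hVS h1)
    calc n * x = n * x * n⁻¹ * n := by group
      _ = x * n := by rw [h2]

end main

end Cfsg.Agent.Lib.Helper33
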