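import Mathlib
import Cfsg.Prelude.Def_ConjugacyFunctors
import Cfsg.Prelude.Def_PLocal
import Cfsg.Prelude.Def_LocalEven
import Cfsg.Prelude.Def_Amalgam
import Cfsg.Prelude.Def_Transfer
import Cfsg.Agent.Lib.Helper33.Wd1

set_option autoImplicit false

universe u

namespace Cfsg.Agent.Lib.Helper33

open Cfsg

open scoped commutatorElement

section odd

variable {G : Type u} [Group G] [Finite G] {p : ℕ} [Fact p.Prime]

/-- Glauberman: for odd `p`, the weakly closed elements of a Sylow `p`-subgroup `S` form a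
subgroup which is a direct factor of `Z(S)`. -/
theorem wc_direct_factor_odd (hp : p ≠ 2) (S : Sylow p G) :
    ∃ W K : Subgroup G, (∀ x : G, x ∈ W ↔ (x ∈ (S : Subgroup G) ∧
        ∀ g : G, g * x * g⁻¹ ∈ (S : Subgroup G) → g * x * g⁻¹ = x)) ∧
      K ≤ (S : Subgroup G) ⊓ Subgroup.centralizer ((S : Subgroup G) : Set G) ∧ W ⊓ K = ⊥ ∧
      W ⊔ K = (S : Subgroup G) ⊓ Subgroup.centralizer ((S : Subgroup G) : Set G) := by
  have hW := isCharPFunctor_kInfLower.{u} p
  have hcf := isConjugacyFunctor_induced hW G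
  have hWZ : ∀ P : Subgroup G, IsPGroup p ↥P → P ⊓ Subgroup.centralizer (P : Set G) ≤
      inducedFunctor (G := G) kInfLower P :=
    fun P hP => (center_le_inducedFunctor_kInf P hP).1
  have hp3 : 2 ≤ p - 1 := by
    have h2 : 2 ≤ p := (Fact.out : p.Prime).two_le
    omega
  have hpS : IsPGroup p (S : Subgroup G) := S.2
  obtain ⟨Kf, hKf⟩ : ∃ Kf : Subgroup G,
      Kf = inducedFunctor (G := G) kInfLower (S : Subgroup G) := ⟨_, rfl⟩
  have hKS : Kf ≤ (S : Subgroup G) := by rw [hKf]; exact cf_le hcf hpS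
  have hSN : (S : Subgroup G) ≤ Subgroup.normalizer (Kf : Set G) := by
    rw [hKf]; exact Subgroup.le_normalizer.trans (cf_normalizer_le hcf hpS)
  refine wc_direct_factor S (Kf ⊓ Subgroup.centralizer (Kf : Set G))
    (Subgroup.normalizer (Kf : Set G)) ?_ hSN (normalizer_le_normalizer_center Kf) ?_
    (inf_le_left.trans hKS) ?_
  · intro a ha b hb
    exact (Subgroup.mem_centralizer_iff.1 (Subgroup.mem_inf.1 ha).2 b
      (Subgroup.mem_inf.1 hb).1).symm
  · exact le_inf (by rw [hKf]; exact hWZ _ hpS) (inf_le_right.trans (Subgroup.centralizer_le hKS))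
  · intro x hx g hgx
    rw [hKf] at hx
    refine weakClosure_all _ hcf hWZ ?_ _ ⊤ rfl S (sylIn_top S) x ?_ g (Subgroup.mem_top g) hgx
    · intro H T hTH hTp hrel hnn
      obtain ⟨g, hgT, hgQ, hquad⟩ := kInf_local_quadratic hW
        (fun Γ _ _ S h => h.1) H T hTH hTp hrel hnn
      refine ⟨g, hgT, hgQ, fun U V hUV hU => ?_⟩
      rw [iterCommutator_eq_bot_of_le hp3 (hquad U hU)]
      exact bot_le
    · exact Subgroup.mem_inf.2 ⟨(Subgroup.mem_inf.1 hx).1,
        Subgroup.centralizer_le inf_le_right (Subgroup.mem_inf.1 hx).2⟩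

end odd

section solvable

variable {G : Type*} [Group G] [Finite G] {p : ℕ} [Fact p.Prime]

/-- In a finite solvable group, the weakly closed elements of a Sylow `p`-subgroup `S` form a
subgroup which is a direct factor of `Z(S)`. -/
theorem wc_direct_factor_solvable [Group.IsSolvable G] (S : Sylow p G) :
    ∃ W K : Subgroup G, (∀ x : G, x ∈ W ↔ (x ∈ (S : Subgroup G) ∧
        ∀ g : G, g * x * g⁻¹ ∈ (S : Subgroup G) → g * x * g⁻¹ = x)) ∧
      K ≤ (S : Subgroup G) ⊓ Subgroup.centralizer ((S : Subgroup G) : Set G) ∧ W ⊓ K = ⊥ ∧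
      W ⊔ K = (S : Subgroup G) ⊓ Subgroup.centralizer ((S : Subgroup G) : Set G) := by
  classical
  have hS := sylIn_top S
  have hpS : IsPGroup p (S : Subgroup G) := S.2
  have hcent : Subgroup.centralizer
      ((pCore p (G ⧸ pPrimeCore p G) : Subgroup (G ⧸ pPrimeCore p G)) : Set (G ⧸ pPrimeCore p G))
      ≤ pCore p (G ⧸ pPrimeCore p G) :=
    Cfsg.Agent.Lib.Helper55.centralizer_pCore_le (fun N hN hc =>
      Cfsg.Agent.Lib.Helper55.eq_bot_of_normal_coprime_quotient p G N hN hc)
  obtain ⟨π, hπ⟩ : ∃ π : G →* G ⧸ pPrimeCore p G, π = QuotientGroup.mk' (pPrimeCore p G) :=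
    ⟨_, rfl⟩
  have hπs : Function.Surjective π := by rw [hπ]; exact QuotientGroup.mk'_surjective _
  have hker : ∀ x : G, π x = 1 → x ∈ pPrimeCore p G := by
    intro x hx
    rw [hπ] at hx
    exact (QuotientGroup.eq_one_iff x).1 hx
  obtain ⟨Qb, hQb⟩ : ∃ Qb : Subgroup (G ⧸ pPrimeCore p G), Qb = pCore p (G ⧸ pPrimeCore p G) :=
    ⟨_, rfl⟩
  rw [← hQb] at hcent
  have hQbn : Qb.Normal := by rw [hQb]; infer_instance
  have hQbS : Qb ≤ (S : Subgroup G).map π := by
    rw [hQb]; exact pCore_le_sylIn (hS.map_surjective π hπs)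
  obtain ⟨L, hL⟩ : ∃ L : Subgroup G, L = Qb.comap π := ⟨_, rfl⟩
  have hLn : L.Normal := by rw [hL]; exact hQbn.comap π
  have hmemL : ∀ x, x ∈ L ↔ π x ∈ Qb := by
    intro x
    rw [hL]
    exact Subgroup.mem_comap
  obtain ⟨P, hP⟩ : ∃ P : Subgroup G, P = (S : Subgroup G) ⊓ L := ⟨_, rfl⟩
  have hPS : P ≤ (S : Subgroup G) := by rw [hP]; exact inf_le_left
  have hcentS : ∀ z ∈ Subgroup.centralizer ((S : Subgroup G) : Set G),
      π z ∈ Subgroup.centralizer (Qb : Set (G ⧸ pPrimeCore p G)) := by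
    intro z hz
    rw [Subgroup.mem_centralizer_iff]
    intro q hq
    obtain ⟨s, hs, rfl⟩ := hQbS hq
    rw [← map_mul, ← map_mul, Subgroup.mem_centralizer_iff.1 hz s hs]
  have hZP : (S : Subgroup G) ⊓ Subgroup.centralizer ((S : Subgroup G) : Set G) ≤
      P ⊓ Subgroup.centralizer (P : Set G) := by
    intro z hz
    obtain ⟨hzS, hzC⟩ := Subgroup.mem_inf.1 hz
    refine Subgroup.mem_inf.2 ⟨?_, Subgroup.centralizer_le hPS hzC⟩
    rw [hP]
    exact Subgroup.mem_inf.2 ⟨hzS, (hmemL z).2 (hcent (hcentS z hzC))⟩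
  have hSN : (S : Subgroup G) ≤ Subgroup.normalizer (P : Set G) := by
    intro s hs
    rw [mem_normalizer_iff_cj, hP, cj_inf, cj_eq_self_of_mem hs, cj_eq_self_of_normal hLn]
  have hsylP : SylIn p P L := by
    rw [hP]; exact hS.inf_normal le_top (fun n _ => cj_eq_self_of_normal hLn n)
  refine wc_direct_factor S (P ⊓ Subgroup.centralizer (P : Set G))
    (Subgroup.normalizer (P : Set G)) ?_ hSN (normalizer_le_normalizer_center P) hZP
    (inf_le_left.trans hPS) ?_
  · intro a ha b hb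
    exact (Subgroup.mem_centralizer_iff.1 (Subgroup.mem_inf.1 ha).2 b
      (Subgroup.mem_inf.1 hb).1).symm
  · intro x hx g hgx
    obtain ⟨hxS, hxN⟩ := Subgroup.mem_inf.1 hx
    have hxC : x ∈ Subgroup.centralizer ((S : Subgroup G) : Set G) :=
      Subgroup.centralizer_le hSN hxN
    have hπx := hcentS x hxC
    obtain ⟨k, hk, hkg⟩ := frattini_arg hsylP (fun g => cj_eq_self_of_normal hLn g) g
    have h1 : (k * g) * x = x * (k * g) := Subgroup.mem_centralizer_iff.1 hxN (k * g) hkg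
    have h2 : π k * π x = π x * π k :=
      Subgroup.mem_centralizer_iff.1 hπx (π k) ((hmemL k).1 hk)
    have h3 : π (g * x * g⁻¹ * x⁻¹) = 1 := by
      have e1 : π (k * g) * π x = π x * π (k * g) := by rw [← map_mul, ← map_mul, h1]
      rw [map_mul] at e1
      have e2 : π g * π x = π x * π g := by
        have e3 : π k * (π g * π x) = π k * (π x * π g) := by
          calc π k * (π g * π x) = π k * π g * π x := by group
            _ = π x * (π k * π g) := e1
            _ = (π x * π k) * π g := by group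
            _ = (π k * π x) * π g := by rw [h2]
            _ = π k * (π x * π g) := by group
        exact mul_left_cancel e3
      rw [map_mul, map_mul, map_mul, map_inv, map_inv, e2]
      group
    have h4 : g * x * g⁻¹ * x⁻¹ ∈ (S : Subgroup G) ⊓ pPrimeCore p G :=
      Subgroup.mem_inf.2 ⟨mul_mem hgx (inv_mem hxS), hker _ h3⟩
    rw [inf_eq_bot_of_pgroup_coprime hpS (Cfsg.Agent.Lib.Helper55.pPrimeCore_coprime p G),
      Subgroup.mem_bot] at h4
    calc g * x * g⁻¹ = g * x * g⁻¹ * x⁻¹ * x := by group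
      _ = x := by rw [h4, one_mul]

end solvable

end Cfsg.Agent.Lib.Helper33
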